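import Mathlib
import Cfsg.Agent.Base
import Cfsg.Agent.Lib.FW.Fus
import Cfsg.Agent.Lib.Inv73.ZStar
import Cfsg.Agent.Lib.ABG.B.QF0a
import Cfsg.Agent.Lib.GL.Basic

/-! Fong-Wong: reduction of the trichotomy to the case of two normal factors. -/

set_option autoImplicit false
set_option linter.unusedSectionVars false

open Matrix H24 Cfsg
open scoped MatrixGroups

namespace H52.FW

namespace Nrm

/-- The configuration before normality of the factors is known. -/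
structure Pre {G F₁ F₂ : Type*} [Group G] [Field F₁] [Fintype F₁] [Field F₂] [Fintype F₂]
    (f1 : SL(2, F₁) →* G) (f2 : SL(2, F₂) →* G) (j : G) : Prop where
  odd1 : Odd (Fintype.card F₁)
  odd2 : Odd (Fintype.card F₂)
  inj1 : Function.Injective f1
  inj2 : Function.Injective f2
  comm : ∀ x y, f1 x * f2 y = f2 y * f1 x
  j1 : f1 (-1) = j
  j2 : f2 (-1) = j
  n1 : ∀ c, c * j = j * c → ∀ x, ∃ a b, c * f1 x * c⁻¹ = f1 a * f2 b
  n2 : ∀ c, c * j = j * c → ∀ x, ∃ a b, c * f2 x * c⁻¹ = f1 a * f2 b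

variable {G F₁ F₂ : Type*} [Group G] [Field F₁] [Fintype F₁] [Field F₂] [Fintype F₂]
  {f1 : SL(2, F₁) →* G} {f2 : SL(2, F₂) →* G} {j : G}

theorem Pre.swap (h : Pre f1 f2 j) : Pre f2 f1 j :=
  ⟨h.odd2, h.odd1, h.inj2, h.inj1, fun x y => (h.comm y x).symm, h.j2, h.j1,
    fun c hc x => let ⟨a, b, e⟩ := h.n2 c hc x; ⟨b, a, e.trans (h.comm a b)⟩,
    fun c hc x => let ⟨a, b, e⟩ := h.n1 c hc x; ⟨b, a, e.trans (h.comm a b)⟩⟩

theorem Pre.of_center (h : Pre f1 f2 j) (a : SL(2, F₁)) {b : SL(2, F₂)}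
    (hb : b ∈ Subgroup.center SL(2, F₂)) : ∃ y, f1 a * f2 b = f1 y := by
  rcases H64.SL2.mem_center_iff'.1 hb with rfl | rfl
  · exact ⟨a, by simp⟩
  · exact ⟨a * -1, by rw [map_mul, h.j1, h.j2]⟩

theorem Pre.conj (h : Pre f1 f2 j) (a : SL(2, F₁)) (b z : SL(2, F₂)) :
    f1 a * f2 b * f2 z * (f1 a * f2 b)⁻¹ = f2 (b * z * b⁻¹) := by
  rw [_root_.mul_inv_rev, ← map_inv f2, mul_assoc, mul_assoc, ← mul_assoc (f2 z), ← map_mul,
    ← mul_assoc (f2 b), ← map_mul, ← mul_assoc, h.comm, mul_inv_cancel_right, mul_assoc]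

theorem Pre.nrm (h : Pre f1 f2 j) (h2 : ∀ c, c * j = j * c → ∀ x, ∃ y, c * f2 x * c⁻¹ = f2 y)
    (c : G) (hc : c * j = j * c) (x : SL(2, F₁)) : ∃ y, c * f1 x * c⁻¹ = f1 y := by
  obtain ⟨a, b, e⟩ := h.n1 c hc x
  rw [e]
  refine h.of_center a (Subgroup.mem_center_iff.2 fun z => ?_)
  obtain ⟨z', hz⟩ := h2 c⁻¹ (Commute.inv_left hc) z
  refine (mul_inv_eq_iff_eq_mul.1 (h.inj2 ?_)).symm
  rw [← h.conj a, ← e]
  calc _ = c * (f1 x * (c⁻¹ * f2 z * c⁻¹⁻¹) * (f1 x)⁻¹) * c⁻¹ := by group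
    _ = _ := by rw [hz, h.comm, mul_inv_cancel_right, ← hz]; group

theorem Pre.big (h : Pre f1 f2 j) (hlt : Fintype.card F₁ < Fintype.card F₂) (c : G)
    (hc : c * j = j * c) (x : SL(2, F₂)) : ∃ y, c * f2 x * c⁻¹ = f2 y := by
  have h2 := H64.SL2.two_ne_zero_of_odd h.odd2
  let K : Subgroup SL(2, F₂) := f2.range.comap ((MulAut.conj c).toMonoidHom.comp f2)
  have hK : ∀ x, x ∈ K ↔ ∃ y, f2 y = c * f2 x * c⁻¹ := fun _ => Iff.rfl
  have : K.Normal := ⟨fun x hx g => by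
    obtain ⟨y, hy⟩ := (hK x).1 hx
    obtain ⟨a, b, e⟩ := h.n2 c hc g
    exact (hK _).2 ⟨b * y * b⁻¹, by rw [← h.conj a, ← e, hy, map_mul, map_mul, map_inv]; group⟩⟩
  by_cases hKc : K ≤ Subgroup.center _
  swap
  · have h3 : 3 < Nat.card F₂ := by
      have := Fintype.one_lt_card (α := F₁)
      obtain ⟨k, hk⟩ := h.odd1
      rw [Nat.card_eq_fintype_card]
      omega
    exact ((hK x).1 (H37.QF.eq_top_of_normal h3 hKc ▸ Subgroup.mem_top x)).imp fun _ => Eq.symm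
  have h3 : ∀ x, ∃ y, c * f2 x * c⁻¹ = f1 y := fun x => by
    obtain ⟨a, b, e⟩ := h.n2 c hc x
    rw [e]
    have k1 : ∀ z : SL(2, F₂), H64.SL2.tr z = 2 → z.1 * b.1 = b.1 * z.1 := fun z hz => by
      obtain ⟨a', b', e'⟩ := h.n2 c⁻¹ (Commute.inv_left hc) z
      have k2 : f2 (b * z * b⁻¹ * z⁻¹) = c * f2 (x * (b' * x⁻¹ * b'⁻¹)) * c⁻¹ := by
        rw [map_mul f2 x, ← h.conj a', ← e', map_mul f2 _ z⁻¹, ← h.conj a, ← e, map_inv, map_inv]
        group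
      rcases H64.SL2.mem_center_iff'.1 (hKc ((hK _).2 ⟨_, k2⟩)) with k3 | k3
      · rw [k3, map_one, mul_one, mul_inv_cancel, ← map_one f2, h.inj2.eq_iff, mul_inv_eq_one,
          mul_inv_eq_iff_eq_mul] at k2
        exact (congrArg Subtype.val k2).symm
      · rw [k3, h.j2, hc, mul_inv_cancel_right, ← h.j2, h.inj2.eq_iff, mul_inv_eq_iff_eq_mul] at k2
        have k4 := H64.SL2.tr_conj z b
        rw [k2, neg_one_mul, H64.SL2.tr_neg, hz] at k4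
        exact absurd (by linear_combination -k4) (mul_ne_zero h2 h2)
    have k2 := scalar_of_comm (k1 _ (by simp [H64.SL2.tr]; norm_num))
      (k1 _ (by simp [H64.SL2.tr]; norm_num))
    exact h.of_center a (Subgroup.mem_center_iff.2 fun z => Subtype.ext (by
      rw [val_mul, val_mul, k2]; simp))
  choose φ hφ using h3
  have h4 := Nat.card_le_card_of_injective φ fun x y e =>
    h.inj2 ((MulAut.conj c).injective ((hφ x).trans (e ▸ (hφ y).symm)))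
  rw [H10.card_SL_two, H10.card_SL_two] at h4
  simp only [Nat.card_eq_fintype_card] at h4
  have := Fintype.one_lt_card (α := F₁)
  exact absurd h4 (not_le.2 (Nat.mul_lt_mul'' (Nat.mul_lt_mul'' hlt (by omega)) (by omega)))

theorem normal_iff {F : Type*} [Field F] {f : SL(2, F) →* G} {C : Subgroup G} (h : f.range ≤ C) :
    (f.range.subgroupOf C).Normal ↔ ∀ c ∈ C, ∀ x, ∃ y, c * f x * c⁻¹ = f y :=
  ⟨fun hn c hc x => (hn.conj_mem ⟨f x, h ⟨x, rfl⟩⟩ ⟨x, rfl⟩ ⟨c, hc⟩).imp fun _ => Eq.symm,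
    fun hn => ⟨fun _ ⟨x, hx⟩ c => (hn c c.2 x).imp fun _ e => e.symm.trans (by rw [hx]; rfl)⟩⟩

theorem neg_eq {F : Type*} [Field F] [Fintype F] (hF : Odd (Fintype.card F)) {f : SL(2, F) →* G}
    (hf : Function.Injective f) (hj : orderOf j = 2) (h : j ∈ f.range) : f (-1) = j := by
  obtain ⟨x, rfl⟩ := h
  rcases Fus.eq_or (H64.SL2.two_ne_zero_of_odd hF)
    (hf (by rw [map_mul, ← pow_two, map_one]; exact orderOf_dvd_iff_pow_eq_one.1 hj.dvd) : x * x = 1)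
    with rfl | rfl
  · simp at hj
  · rfl

end Nrm

open Nrm

/-- Reduction of S3207 to `St`. -/
theorem reduce {G : Type*} [Group G] [Finite G]
    {F₁ : Type*} [Field F₁] [Fintype F₁] {F₂ : Type*} [Field F₂] [Fintype F₂]
    (hF₁ : Odd (Fintype.card F₁)) (hF₂ : Odd (Fintype.card F₂)) (L₁ L₂ : Subgroup G)
    (e₁ : ↥L₁ ≃* Matrix.SpecialLinearGroup (Fin 2) F₁) (e₂ : ↥L₂ ≃* Matrix.SpecialLinearGroup (Fin 2) F₂)
    (hc : ∀ x ∈ L₁, ∀ y ∈ L₂, x * y = y * x) (j : G) (hj : orderOf j = 2) (hm : L₁ ⊓ L₂ = Subgroup.zpowers j)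
    (hle : L₁ ⊔ L₂ ≤ Subgroup.centralizer ({j} : Set G)) (hi : (L₁ ⊔ L₂).relIndex (Subgroup.centralizer ({j} : Set G)) = 2)
    (hG : Subgroup.centralizer ({j} : Set G) ⊔ Cfsg.oddCore G ≠ ⊤)
    (main : ∀ S : St G F₁ F₂, S.Fus →
      Fintype.card F₁ = Fintype.card F₂ ^ 3 ∨ Fintype.card F₂ = Fintype.card F₁ ^ 3) :
    (Fintype.card F₁ = Fintype.card F₂ ∧ ¬ (L₁.subgroupOf (Subgroup.centralizer ({j} : Set G))).Normal ∧
        ¬ (L₂.subgroupOf (Subgroup.centralizer ({j} : Set G))).Normal) ∨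
      (Fintype.card F₁ = Fintype.card F₂ ∧ (L₁.subgroupOf (Subgroup.centralizer ({j} : Set G))).Normal ∧
        (L₂.subgroupOf (Subgroup.centralizer ({j} : Set G))).Normal) ∨
      (Fintype.card F₁ = Fintype.card F₂ ^ 3 ∨ Fintype.card F₂ = Fintype.card F₁ ^ 3) := by
  obtain ⟨f1, i1, rfl⟩ : ∃ f : SL(2, F₁) →* G, Function.Injective f ∧ f.range = L₁ :=
    ⟨L₁.subtype.comp e₁.symm.toMonoidHom, L₁.subtype_injective.comp e₁.symm.injective, by
      rw [MonoidHom.range_comp, MonoidHom.range_eq_top.2 e₁.symm.surjective, ← MonoidHom.range_eq_map,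
        Subgroup.range_subtype]⟩
  obtain ⟨f2, i2, rfl⟩ : ∃ f : SL(2, F₂) →* G, Function.Injective f ∧ f.range = L₂ :=
    ⟨L₂.subtype.comp e₂.symm.toMonoidHom, L₂.subtype_injective.comp e₂.symm.injective, by
      rw [MonoidHom.range_comp, MonoidHom.range_eq_top.2 e₂.symm.surjective, ← MonoidHom.range_eq_map,
        Subgroup.range_subtype]⟩
  have hjm : j ∈ f1.range ⊓ f2.range := hm ▸ Subgroup.mem_zpowers j
  have j1 := neg_eq hF₁ i1 hj hjm.1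
  have j2 := neg_eq hF₂ i2 hj hjm.2
  have comm : ∀ x y, f1 x * f2 y = f2 y * f1 x := fun x y => hc _ ⟨x, rfl⟩ _ ⟨y, rfl⟩
  have hY : ∀ c, c ∈ f1.range ⊔ f2.range ↔ ∃ x y, c = f1 x * f2 y := fun c => by
    have : f1.range ⊔ f2.range = (f1.noncommCoprod f2 comm).range :=
      (MonoidHom.noncommCoprod_range _ _ _).symm
    rw [this]
    exact ⟨fun ⟨x, e⟩ => ⟨x.1, x.2, e.symm⟩, fun ⟨x, y, e⟩ => ⟨(x, y), e.symm⟩⟩
  have hC : ∀ c, c ∈ Subgroup.centralizer ({j} : Set G) ↔ c * j = j * c := fun _ =>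
    Subgroup.mem_centralizer_singleton_iff
  have hn := Subgroup.normal_of_index_eq_two hi
  have h : Pre f1 f2 j := ⟨hF₁, hF₂, i1, i2, comm, j1, j2,
    fun c hc x => (hY _).1 (hn.conj_mem ⟨f1 x, hle (Subgroup.mem_sup_left ⟨x, rfl⟩)⟩
      (Subgroup.mem_sup_left ⟨x, rfl⟩ : f1 x ∈ f1.range ⊔ f2.range) ⟨c, (hC c).2 hc⟩),
    fun c hc x => (hY _).1 (hn.conj_mem ⟨f2 x, hle (Subgroup.mem_sup_right ⟨x, rfl⟩)⟩
      (Subgroup.mem_sup_right ⟨x, rfl⟩ : f2 x ∈ f1.range ⊔ f2.range) ⟨c, (hC c).2 hc⟩)⟩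
  rw [normal_iff (le_sup_left.trans hle), normal_iff (le_sup_right.trans hle)]
  simp only [hC]
  by_cases hq : Fintype.card F₁ = Fintype.card F₂
  · by_cases h1 : ∀ c, c * j = j * c → ∀ x, ∃ y, c * f1 x * c⁻¹ = f1 y
    · exact Or.inr (Or.inl ⟨hq, h1, h.swap.nrm h1⟩)
    · exact Or.inl ⟨hq, h1, fun h2 => h1 (h.nrm h2)⟩
  obtain ⟨n1, n2⟩ : (∀ c, c * j = j * c → ∀ x, ∃ y, c * f1 x * c⁻¹ = f1 y) ∧
      ∀ c, c * j = j * c → ∀ x, ∃ y, c * f2 x * c⁻¹ = f2 y := by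
    rcases lt_or_gt_of_ne hq with h1 | h1
    · exact ⟨h.nrm (h.big h1), h.big h1⟩
    · exact ⟨h.swap.big h1, h.swap.nrm (h.swap.big h1)⟩
  let S : St G F₁ F₂ := ⟨f1, f2, j, hF₁, hF₂, hq, i1, i2, comm, j1, j2, fun x y e => by
      have k1 : f1 x ∈ Subgroup.zpowers j := hm ▸ ⟨⟨x, rfl⟩, ⟨y, e.symm⟩⟩
      obtain ⟨k, hk⟩ := Subgroup.mem_zpowers_iff.1 k1
      refine Fus.eq_or (H64.SL2.two_ne_zero_of_odd hF₁) (i1 ?_)
      rw [map_mul, ← hk, map_one, ← (Commute.refl j).mul_zpow, ← pow_two, ← hj, pow_orderOf_eq_one,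
        _root_.one_zpow],
    fun c d hc hd h1 h2 => (hY _).1 ((Subgroup.mul_mem_iff_of_index_two hi
      (a := ⟨c, (hC c).2 hc⟩) (b := ⟨d, (hC d).2 hd⟩)).2
        (iff_of_false (fun e => h1 ((hY c).1 e)) fun e => h2 ((hY d).1 e))), n1, n2⟩
  refine Or.inr (Or.inr (main S (S.fus ?_)))
  by_contra hh
  push Not at hh
  exact hG (H73.centralizer_sup_oddCore_eq_top' hj fun g hg => not_not.1 fun e => hh g e hg)

end H52.FW
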